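import Cfsg.Agent.Lib.ModRep.AbFrob5
import Cfsg.Agent.Lib.Char.ClassProd
import Cfsg.Agent.Lib.V4Block.Second

/-!
# Products of two involutions and the principal block when the automizer has order three
-/

set_option autoImplicit false
set_option linter.style.haveILetI false
set_option linter.unusedSectionVars false

namespace Cfsg.Agent.Lib.ModRep.AbFrob

open Cfsg
open Cfsg.Agent.Lib.Blocks.Local Cfsg.Agent.Lib.Blocks.Central Cfsg.Agent.Lib.Blocks.General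
open Cfsg.Agent.Lib.Char.Ortho Cfsg.Agent.Lib.ExcP.Gram
open Cfsg.Agent.Lib.ModRep.Prime
open Cfsg.Agent.Lib.Blocks.Third (oneI)
open scoped ComplexConjugate

universe u

theorem numeric_core {X₂ X₃ X₄ E₂ E₃ E₄ S₂ S₃ S₄ : ℚ} (hX2 : X₂ ≠ 0) (hX3 : X₃ ≠ 0) (hX4 : X₄ ≠ 0)
    (hE2 : E₂ ^ 2 = 1) (hE3 : E₃ ^ 2 = 1) (hE4 : E₄ ^ 2 = 1)
    (hI : 1 + E₂ * X₂ + E₃ * X₃ + E₄ * X₄ = 0) (hII : 1 + E₂ * S₂ + E₃ * S₃ + E₄ * S₄ = 0)
    (hIII : 1 + E₂ * S₂ ^ 2 / X₂ + E₃ * S₃ ^ 2 / X₃ + E₄ * S₄ ^ 2 / X₄ = 0) (hS2 : S₂ ≠ X₂) :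
    ∃ q : ℚ, q ≠ 0 ∧ q ^ 2 * (X₂ * X₃ * X₄) = E₂ * E₃ * E₄ := by
  have hE20 : E₂ ≠ 0 := by
    rintro rfl
    norm_num at hE2
  have hE30 : E₃ ≠ 0 := by
    rintro rfl
    norm_num at hE3
  have hE40 : E₄ ≠ 0 := by
    rintro rfl
    norm_num at hE4
  obtain ⟨d₂, hd₂⟩ : ∃ d₂ : ℚ, d₂ = E₂ / X₂ := ⟨_, rfl⟩
  obtain ⟨d₃, hd₃⟩ : ∃ d₃ : ℚ, d₃ = E₃ / X₃ := ⟨_, rfl⟩
  obtain ⟨d₄, hd₄⟩ : ∃ d₄ : ℚ, d₄ = E₄ / X₄ := ⟨_, rfl⟩
  have hd₂X : d₂ * X₂ = E₂ := by rw [hd₂]; field_simp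
  have hd₃X : d₃ * X₃ = E₃ := by rw [hd₃]; field_simp
  have hd₄X : d₄ * X₄ = E₄ := by rw [hd₄]; field_simp
  have hd20 : d₂ ≠ 0 := by
    rintro rfl
    exact hE20 (by rw [← hd₂X, zero_mul])
  have hd30 : d₃ ≠ 0 := by
    rintro rfl
    exact hE30 (by rw [← hd₃X, zero_mul])
  have hd40 : d₄ ≠ 0 := by
    rintro rfl
    exact hE40 (by rw [← hd₄X, zero_mul])
  -- the relation among the `d`
  have hrel : d₂ * d₃ + d₂ * d₄ + d₃ * d₄ + d₂ * d₃ * d₄ = 0 := by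
    have h2 : d₂ * (E₂ * X₂) = 1 := by
      calc d₂ * (E₂ * X₂) = (d₂ * X₂) * E₂ := by ring
        _ = E₂ ^ 2 := by rw [hd₂X]; ring
        _ = 1 := hE2
    have h3 : d₃ * (E₃ * X₃) = 1 := by
      calc d₃ * (E₃ * X₃) = (d₃ * X₃) * E₃ := by ring
        _ = E₃ ^ 2 := by rw [hd₃X]; ring
        _ = 1 := hE3
    have h4 : d₄ * (E₄ * X₄) = 1 := by
      calc d₄ * (E₄ * X₄) = (d₄ * X₄) * E₄ := by ring
        _ = E₄ ^ 2 := by rw [hd₄X]; ring
        _ = 1 := hE4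
    linear_combination (d₂ * d₃ * d₄) * hI - d₃ * d₄ * h2 - d₂ * d₄ * h3 - d₂ * d₃ * h4
  -- the isotropic vector
  obtain ⟨v₂, hv₂⟩ : ∃ v₂ : ℚ, v₂ = E₂ * (S₂ - X₂) := ⟨_, rfl⟩
  obtain ⟨v₃, hv₃⟩ : ∃ v₃ : ℚ, v₃ = E₃ * (S₃ - X₃) := ⟨_, rfl⟩
  obtain ⟨v₄, hv₄⟩ : ∃ v₄ : ℚ, v₄ = E₄ * (S₄ - X₄) := ⟨_, rfl⟩
  have hv20 : v₂ ≠ 0 := by
    rw [hv₂]
    exact mul_ne_zero hE20 (sub_ne_zero.mpr hS2)
  have hvsum : v₄ = - v₂ - v₃ := by
    rw [hv₂, hv₃, hv₄]
    linear_combination hII - hI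
  have hF : d₂ * v₂ ^ 2 + d₃ * v₃ ^ 2 + d₄ * v₄ ^ 2 = 0 := by
    have h2 : d₂ * v₂ ^ 2 = E₂ * S₂ ^ 2 / X₂ - 2 * (E₂ * S₂) + E₂ * X₂ := by
      rw [hd₂, hv₂, mul_pow, hE2]
      field_simp
      ring
    have h3 : d₃ * v₃ ^ 2 = E₃ * S₃ ^ 2 / X₃ - 2 * (E₃ * S₃) + E₃ * X₃ := by
      rw [hd₃, hv₃, mul_pow, hE3]
      field_simp
      ring
    have h4 : d₄ * v₄ ^ 2 = E₄ * S₄ ^ 2 / X₄ - 2 * (E₄ * S₄) + E₄ * X₄ := by
      rw [hd₄, hv₄, mul_pow, hE4]
      field_simp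
      ring
    rw [h2, h3, h4]
    linear_combination hIII - 2 * hII + hI
  rw [hvsum] at hF
  -- a rational square root of `d₂ d₃ d₄`
  have hq : ∃ q : ℚ, q ^ 2 = d₂ * d₃ * d₄ := by
    by_cases hA : d₂ + d₄ = 0
    · refine ⟨d₂, ?_⟩
      have h4 : d₄ = - d₂ := by linear_combination hA
      rw [h4] at hrel ⊢
      linear_combination -hrel
    · have hv30 : v₃ ≠ 0 := by
        rintro rfl
        have h1 : (d₂ + d₄) * v₂ ^ 2 = 0 := by
          linear_combination hF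
        rcases mul_eq_zero.mp h1 with h2 | h2
        · exact hA h2
        · exact hv20 (pow_eq_zero_iff two_ne_zero |>.mp h2)
      refine ⟨((d₂ + d₄) * v₂ + d₄ * v₃) / v₃, ?_⟩
      rw [div_pow, div_eq_iff (pow_ne_zero 2 hv30)]
      linear_combination (d₂ + d₄) * hF + v₃ ^ 2 * (-hrel)
  obtain ⟨q, hq⟩ := hq
  have hq0 : q ≠ 0 := by
    rintro rfl
    have : d₂ * d₃ * d₄ ≠ 0 := mul_ne_zero (mul_ne_zero hd20 hd30) hd40
    apply this
    rw [← hq]
    norm_num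
  refine ⟨q, hq0, ?_⟩
  rw [hq, ← hd₂X, ← hd₃X, ← hd₄X]
  ring

/-- An isotropic plane forces the discriminant to be a square. -/
theorem numeric {x₂ x₃ x₄ : ℕ} (h2 : x₂ ≠ 0) (h3 : x₃ ≠ 0) (h4 : x₄ ≠ 0) {e₂ e₃ e₄ s₂ s₃ s₄ : ℤ}
    (he₂ : e₂ ^ 2 = 1) (he₃ : e₃ ^ 2 = 1) (he₄ : e₄ ^ 2 = 1)
    (hi : 1 + e₂ * x₂ + e₃ * x₃ + e₄ * x₄ = 0) (hii : 1 + e₂ * s₂ + e₃ * s₃ + e₄ * s₄ = 0)
    (hiii : (1 : ℚ) + e₂ * s₂ ^ 2 / x₂ + e₃ * s₃ ^ 2 / x₃ + e₄ * s₄ ^ 2 / x₄ = 0)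
    (hne : s₂ ≠ x₂) : e₂ * e₃ * e₄ = 1 ∧ IsSquare (x₂ * x₃ * x₄) := by
  have hX2 : (x₂ : ℚ) ≠ 0 := by exact_mod_cast h2
  have hX3 : (x₃ : ℚ) ≠ 0 := by exact_mod_cast h3
  have hX4 : (x₄ : ℚ) ≠ 0 := by exact_mod_cast h4
  obtain ⟨q, hq0, hq⟩ := numeric_core hX2 hX3 hX4 (E₂ := e₂) (E₃ := e₃) (E₄ := e₄) (S₂ := s₂) (S₃ := s₃) (S₄ := s₄)
    (by exact_mod_cast he₂) (by exact_mod_cast he₃) (by exact_mod_cast he₄)
    (by exact_mod_cast hi) (by exact_mod_cast hii) hiii (by exact_mod_cast hne)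
  have hprod : e₂ * e₃ * e₄ = 1 ∨ e₂ * e₃ * e₄ = -1 := by
    have h5 : (e₂ * e₃ * e₄) ^ 2 = 1 := by
      rw [mul_pow, mul_pow, he₂, he₃, he₄]
      norm_num
    exact mul_self_eq_one_iff.mp (by rw [← sq]; exact h5)
  have hpos : 0 < q ^ 2 * ((x₂ : ℚ) * x₃ * x₄) := by
    have h5 : 0 < q ^ 2 := by positivity
    have h6 : 0 < (x₂ : ℚ) := by positivity
    have h7 : 0 < (x₃ : ℚ) := by positivity
    have h8 : 0 < (x₄ : ℚ) := by positivity
    positivity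
  have he1 : e₂ * e₃ * e₄ = 1 := by
    rcases hprod with h5 | h5
    · exact h5
    · exfalso
      have h6 : (e₂ : ℚ) * e₃ * e₄ = -1 := by exact_mod_cast h5
      rw [hq, h6] at hpos
      norm_num at hpos
  refine ⟨he1, ?_⟩
  have h6 : (e₂ : ℚ) * e₃ * e₄ = 1 := by exact_mod_cast he1
  rw [h6] at hq
  rw [← Rat.isSquare_natCast_iff]
  refine ⟨q⁻¹, ?_⟩
  push_cast
  field_simp
  linear_combination hq


variable {G : Type u} [Group G] {p : ℕ} [hp : Fact p.Prime] {P : Subgroup G}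

section Vanish

variable [Fintype G] [Fintype (IrrCharacter G)] {M : Ideal AlgInt}

open scoped Classical in
/-- Averaging over the normal complement. -/
theorem AbF.sum_K (h : AbF P p) (hM : IsPModular p M) {y : G} (hy : y ∈ P)
    {K : Subgroup (Subgroup.centralizer ({y} : Set G))} [Fintype K] (hK : K.Normal)
    (hcard : ¬ p ∣ Nat.card K) (hidx : K.index = Nat.card P) (j : IrrCharacter G) :
    ∑ v : K, (j : G → ℂ) (((v : Subgroup.centralizer ({y} : Set G)) : G) * y) =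
      if j ∈ principalBlock M G then (Nat.card K : ℂ) * (j : G → ℂ) y else 0 := by
  classical
  haveI := isPrime_of_pModular hM
  have := Cfsg.Agent.Lib.Char.Ortho.finite_irrCharacter (G := Subgroup.centralizer ({y} : Set G))
  letI : Fintype (IrrCharacter (Subgroup.centralizer ({y} : Set G))) := Fintype.ofFinite _
  letI : Fintype (Subgroup.centralizer ({y} : Set G)) := Fintype.ofFinite _
  have hoy := h.order_pow hy
  by_cases hj : j ∈ principalBlock M G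
  · rw [if_pos hj]
    have h1 : ∀ v : K, (j : G → ℂ) (((v : Subgroup.centralizer ({y} : Set G)) : G) * y) = (j : G → ℂ) y := by
      intro v
      have h2 := value_eq_of_mem hM hoy rfl hK hcard hj v.2
      rw [← h2, (Subgroup.mem_centralizer_singleton_iff.mp (v : Subgroup.centralizer ({y} : Set G)).2)]
    rw [Finset.sum_congr rfl (fun v _ => h1 v), Finset.sum_const, Finset.card_univ, nsmul_eq_mul,
      ← Nat.card_eq_fintype_card]
  · rw [if_neg hj]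
    obtain ⟨k, hk⟩ := h.card_pow
    exact sum_eq_zero_of_notMem hM hoy rfl hK hcard ⟨k, by rw [hidx, hk]⟩ hj

open scoped Classical in
/-- The vanishing of the block sum when `u` is not in a section of a product. -/
theorem AbF.sum_vanish (h : AbF P p) (hM : IsPModular p M) {u : G} (hu : u ∈ P) (hu1 : u ≠ 1) (t : G)
    (hno : ∀ a b v : G, IsConj t a → IsConj t b → v ∈ Subgroup.centralizer ({u} : Set G) →
      ¬ p ∣ orderOf v → a * b ≠ v * u) :
    ∑ j : IrrCharacter G, (if j ∈ principalBlock M G then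
      (j : G → ℂ) t * (j : G → ℂ) t * conj ((j : G → ℂ) u) / (j : G → ℂ) 1 else 0) = 0 := by
  obtain ⟨K, hK, hcard, hidx⟩ := h.exists_complement hu hu1
  letI : Fintype K := Fintype.ofFinite _
  have hK0 : (Nat.card K : ℂ) ≠ 0 := Nat.cast_ne_zero.mpr Nat.card_pos.ne'
  have hG0 : (Nat.card G : ℂ) ≠ 0 := Nat.cast_ne_zero.mpr Nat.card_pos.ne'
  have hcl0 : (Nat.card {x : G // IsConj t x} : ℂ) ≠ 0 := by
    haveI : Nonempty {x : G // IsConj t x} := ⟨⟨t, IsConj.refl _⟩⟩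
    exact Nat.cast_ne_zero.mpr Nat.card_pos.ne'
  have hv : ∀ v : K, ∑ χ : IrrCharacter G, (χ : G → ℂ) t * (χ : G → ℂ) t *
      conj ((χ : G → ℂ) (((v : Subgroup.centralizer ({u} : Set G)) : G) * u)) / (χ : G → ℂ) 1 = 0 := by
    intro v
    have h1 := Cfsg.Agent.Lib.Char.ClassProd.card_product_eq t t (((v : Subgroup.centralizer ({u} : Set G)) : G) * u)
    have h2 : Nat.card {p_1 : G × G // IsConj t p_1.1 ∧ IsConj t p_1.2 ∧
        p_1.1 * p_1.2 = ((v : Subgroup.centralizer ({u} : Set G)) : G) * u} = 0 := by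
      haveI : IsEmpty {p_1 : G × G // IsConj t p_1.1 ∧ IsConj t p_1.2 ∧
          p_1.1 * p_1.2 = ((v : Subgroup.centralizer ({u} : Set G)) : G) * u} := by
        refine ⟨fun x => hno x.1.1 x.1.2 _ x.2.1 x.2.2.1 (v : Subgroup.centralizer ({u} : Set G)).2 ?_ x.2.2.2⟩
        have h3 := (h.orderOf_mul hu hcard v).2
        have h4 : orderOf ((v : Subgroup.centralizer ({u} : Set G)) : G) = orderOf v := by
          rw [← Subgroup.orderOf_coe v, ← Subgroup.orderOf_coe (v : Subgroup.centralizer ({u} : Set G))]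
        rw [h4]
        intro hd
        exact hcard (hd.trans (orderOf_dvd_natCard v))
      exact Nat.card_of_isEmpty
    rw [h2, Nat.cast_zero] at h1
    have h3 := (mul_eq_zero.mp h1.symm).resolve_left (div_ne_zero (mul_ne_zero hcl0 hcl0) hG0)
    exact h3
  have h1 : ∑ v : K, ∑ χ : IrrCharacter G, (χ : G → ℂ) t * (χ : G → ℂ) t *
      conj ((χ : G → ℂ) (((v : Subgroup.centralizer ({u} : Set G)) : G) * u)) / (χ : G → ℂ) 1 =
      (Nat.card K : ℂ) * ∑ j : IrrCharacter G, (if j ∈ principalBlock M G then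
      (j : G → ℂ) t * (j : G → ℂ) t * conj ((j : G → ℂ) u) / (j : G → ℂ) 1 else 0) := by
    rw [Finset.sum_comm, Finset.mul_sum]
    refine Finset.sum_congr rfl fun j _ => ?_
    have h2 : ∀ v : K, (j : G → ℂ) t * (j : G → ℂ) t *
        conj ((j : G → ℂ) (((v : Subgroup.centralizer ({u} : Set G)) : G) * u)) / (j : G → ℂ) 1 =
        ((j : G → ℂ) t * (j : G → ℂ) t / (j : G → ℂ) 1) *
          conj ((j : G → ℂ) (((v : Subgroup.centralizer ({u} : Set G)) : G) * u)) := by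
      intro v
      ring
    simp only [h2]
    rw [← Finset.mul_sum, ← map_sum, h.sum_K hM hu hK hcard hidx j]
    by_cases hj : j ∈ principalBlock M G
    · rw [if_pos hj, if_pos hj, map_mul, map_natCast]
      ring
    · rw [if_neg hj, if_neg hj]
      simp
  rw [Finset.sum_congr rfl (fun v _ => hv v), Finset.sum_const_zero] at h1
  exact (mul_eq_zero.mp h1.symm).resolve_left hK0

end Vanish

section GroupTheory

variable [Finite G]

/-- An involution inverts the two parts of a product of two involutions. -/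
theorem inv_of_product {a b v u : G} (ha : a * a = 1) (hb : b * b = 1) (hab : a * b = v * u)
    (hc : Commute v u) (hco : (orderOf v).Coprime (orderOf u)) :
    a * u * a⁻¹ = u⁻¹ ∧ a * v * a⁻¹ = v⁻¹ := by
  have ha' : a⁻¹ = a := inv_eq_of_mul_eq_one_left ha
  have hb' : b⁻¹ = b := inv_eq_of_mul_eq_one_left hb
  have hx : a * (v * u) * a⁻¹ = (v * u)⁻¹ := by
    rw [← hab, mul_inv_rev, ha', hb', ← mul_assoc, ha, one_mul]
  have hpow : ∀ k : ℕ, a * (v * u) ^ k * a⁻¹ = ((v * u) ^ k)⁻¹ := by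
    intro k
    rw [← conj_pow, hx, inv_pow]
  constructor
  · obtain ⟨m, hm⟩ := exists_pow_eq_self_of_coprime hco
    have h1 : ((v * u) ^ orderOf v) ^ m = u := by
      rw [hc.mul_pow, pow_orderOf_eq_one, one_mul, hm]
    rw [← pow_mul] at h1
    have h2 := hpow (orderOf v * m)
    rwa [h1] at h2
  · obtain ⟨m, hm⟩ := exists_pow_eq_self_of_coprime hco.symm
    have h1 : ((v * u) ^ orderOf u) ^ m = v := by
      rw [hc.mul_pow, pow_orderOf_eq_one, mul_one, hm]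
    rw [← pow_mul] at h1
    have h2 := hpow (orderOf u * m)
    rwa [h1] at h2

/-- The centralizer has index three in the normalizer. -/
theorem index_CC (hm : Nat.card (Nn P) = 3 * Nat.card (Cn P)) : (CC P).index = 3 := by
  have h1 := Subgroup.card_mul_index (CC P)
  rw [card_CC, hm, mul_comm 3] at h1
  exact Nat.eq_of_mul_eq_mul_left Nat.card_pos h1

instance normal_CC (P : Subgroup G) : (CC P).Normal :=
  ⟨fun c hc n => Subgroup.mem_subgroupOf.mpr (by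
    have := conj_mem_centralizer P ((Nn P).inv_mem n.2) (Subgroup.mem_subgroupOf.mp hc)
    simpa using this)⟩

/-- An element of `P` inverted in `G` has order at most two, when the automizer has order three. -/
theorem AbF.sq_eq_one_of_inverted (h : AbF P p) (hm : Nat.card (Nn P) = 3 * Nat.card (Cn P)) {u a : G}
    (hu : u ∈ P) (ha : a * u * a⁻¹ = u⁻¹) : u * u = 1 := by
  by_cases hu1 : u = 1
  · rw [hu1, mul_one]
  obtain ⟨n, hn, hnu⟩ := h.exists_normalizer_of_isConj hu (P.inv_mem hu) (isConj_iff.mpr ⟨a, ha⟩)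
  have h2 : (n * n) * u * (n * n)⁻¹ = u := by
    calc (n * n) * u * (n * n)⁻¹ = n * (n * u * n⁻¹) * n⁻¹ := by group
      _ = n * u⁻¹ * n⁻¹ := by rw [hnu]
      _ = (n * u * n⁻¹)⁻¹ := by group
      _ = u := by rw [hnu, inv_inv]
  have hn2 : n * n ∈ Cn P := h.mem_Cn_of_fix ((Nn P).mul_mem hn hn) hu hu1 h2
  have hn3 : n * n * n ∈ Cn P := by
    have h3 := Subgroup.pow_index_mem (CC P) (⟨n, hn⟩ : Nn P)
    rw [index_CC hm] at h3
    have h4 := Subgroup.mem_subgroupOf.mp h3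
    simpa [pow_succ] using h4
  have hnC : n ∈ Cn P := by
    have h5 := (Cn P).mul_mem ((Cn P).inv_mem hn2) hn3
    have e : (n * n)⁻¹ * (n * n * n) = n := by group
    rwa [e] at h5
  have h6 := Subgroup.mem_centralizer_iff.mp hnC u hu
  have h7 : u⁻¹ = u := by
    rw [← hnu, ← h6]
    group
  calc u * u = u * u⁻¹ := by rw [h7]
    _ = 1 := mul_inv_cancel u

/-- Conjugates of an involution are involutions. -/
theorem mul_self_of_isConj {t a : G} (ht : t * t = 1) (hc : IsConj t a) : a * a = 1 := by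
  obtain ⟨c, rfl⟩ := isConj_iff.mp hc
  calc c * t * c⁻¹ * (c * t * c⁻¹) = c * (t * t) * c⁻¹ := by group
    _ = 1 := by rw [ht]; group

/-- Odd primes: no product of two conjugates of an involution lies in a section of `P^#`. -/
theorem AbF.no_product_odd (h : AbF P p) (hm : Nat.card (Nn P) = 3 * Nat.card (Cn P)) (hp2 : p ≠ 2)
    {t u : G} (ht : t * t = 1) (hu : u ∈ P) (hu1 : u ≠ 1) :
    ∀ a b v : G, IsConj t a → IsConj t b → v ∈ Subgroup.centralizer ({u} : Set G) →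
      ¬ p ∣ orderOf v → a * b ≠ v * u := by
  intro a b v ha hb hv hvp hab
  obtain ⟨k, hk⟩ := (IsPGroup.iff_orderOf.mp h.pgrp) ⟨u, hu⟩
  rw [Subgroup.orderOf_mk] at hk
  have hco : (orderOf v).Coprime (orderOf u) := by
    rw [hk]
    exact Nat.Coprime.pow_right _ ((Nat.Prime.coprime_iff_not_dvd hp.out).mpr hvp).symm
  have hc : Commute v u := (Subgroup.mem_centralizer_singleton_iff.mp hv)
  obtain ⟨h1, -⟩ := inv_of_product (mul_self_of_isConj ht ha) (mul_self_of_isConj ht hb) hab hc hco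
  have h2 := h.sq_eq_one_of_inverted hm hu h1
  have h3 : orderOf u ∣ 2 := orderOf_dvd_of_pow_eq_one (by rw [sq, h2])
  rw [hk] at h3
  have hk0 : k ≠ 0 := by
    rintro rfl
    apply hu1
    rw [← orderOf_eq_one_iff, hk, pow_zero]
  have h4 : p ∣ 2 := (dvd_pow_self p hk0).trans h3
  exact hp2 ((Nat.prime_dvd_prime_iff_eq hp.out Nat.prime_two).mp h4)

/-- `p = 2`: a product of two conjugates of `t ∈ P` in the section of `u` forces `u` to be a
product of two `N`-conjugates of `t`. -/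
theorem AbF.no_product_two (h : AbF P p) (hm : Nat.card (Nn P) = 3 * Nat.card (Cn P)) (hp2 : p = 2)
    {t u : G} (htP : t ∈ P) (ht : t * t = 1) (hu : u ∈ P) (hu1 : u ≠ 1)
    (hA : ∀ n₁ ∈ Nn P, ∀ n₂ ∈ Nn P, n₁ * t * n₁⁻¹ * (n₂ * t * n₂⁻¹) ≠ u) :
    ∀ a b v : G, IsConj t a → IsConj t b → v ∈ Subgroup.centralizer ({u} : Set G) →
      ¬ p ∣ orderOf v → a * b ≠ v * u := by
  classical
  intro a b v ha hb hv hvp hab
  subst hp2
  obtain ⟨k, hk⟩ := (IsPGroup.iff_orderOf.mp h.pgrp) ⟨u, hu⟩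
  rw [Subgroup.orderOf_mk] at hk
  have hco : (orderOf v).Coprime (orderOf u) := by
    rw [hk]
    exact Nat.Coprime.pow_right _ ((Nat.Prime.coprime_iff_not_dvd hp.out).mpr hvp).symm
  have hc : Commute v u := (Subgroup.mem_centralizer_singleton_iff.mp hv)
  have haa := mul_self_of_isConj ht ha
  have hbb := mul_self_of_isConj ht hb
  obtain ⟨h1, h1v⟩ := inv_of_product haa hbb hab hc hco
  have huu := h.sq_eq_one_of_inverted hm hu h1
  have hu' : u⁻¹ = u := inv_eq_of_mul_eq_one_left huu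
  rw [hu'] at h1
  have haC : a ∈ Subgroup.centralizer ({u} : Set G) := by
    rw [Subgroup.mem_centralizer_singleton_iff]
    rw [mul_inv_eq_iff_eq_mul] at h1
    exact h1
  have ha' : a⁻¹ = a := inv_eq_of_mul_eq_one_left haa
  -- the square root of `v`
  obtain ⟨r, hr⟩ : ∃ r : ℕ, orderOf v = 2 * r + 1 := by
    have : Odd (orderOf v) := Nat.not_even_iff_odd.mp (fun he => hvp he.two_dvd)
    exact this
  let w := v ^ (r + 1)
  have hw : w * w = v := by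
    rw [← pow_add, show r + 1 + (r + 1) = orderOf v + 1 by omega, pow_succ, pow_orderOf_eq_one, one_mul]
  have hwu : Commute w u := hc.pow_left _
  have hw' : a * w * a⁻¹ = w⁻¹ := by
    show a * v ^ (r + 1) * a⁻¹ = (v ^ (r + 1))⁻¹
    rw [← conj_pow, h1v, inv_pow]
  have hb2 : b = w⁻¹ * (a * u) * w := by
    have h2 : b = a * (v * u) := by
      rw [← hab, ← mul_assoc, haa, one_mul]
    have h3 : a * w = w⁻¹ * a := by
      rw [mul_inv_eq_iff_eq_mul] at hw'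
      exact hw'
    calc b = a * (v * u) := h2
      _ = a * (w * w * u) := by rw [hw]
      _ = (a * w) * (w * u) := by group
      _ = (w⁻¹ * a) * (u * w) := by rw [h3, hwu.eq]
      _ = w⁻¹ * (a * u) * w := by group
  have hconj1 : IsConj t (a * u) := by
    refine hb.trans ?_
    rw [hb2]
    refine isConj_iff.mpr ⟨w, ?_⟩
    group
  -- the Sylow subgroup of the centralizer
  have hle : P ≤ Subgroup.centralizer ({u} : Set G) := by
    intro x hx
    rw [Subgroup.mem_centralizer_singleton_iff]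
    exact h.ab x hx u hu
  set H := Subgroup.centralizer ({u} : Set G) with hH
  let S₁ : Sylow 2 H := h.sylowIn hle
  have hzp : IsPGroup 2 (Subgroup.zpowers (⟨a, haC⟩ : H)) := by
    rw [IsPGroup.iff_orderOf]
    rintro ⟨x, hx⟩
    obtain ⟨n, rfl⟩ := Subgroup.mem_zpowers_iff.mp hx
    have h5 : (⟨a, haC⟩ : H) * ⟨a, haC⟩ = 1 := Subtype.ext haa
    have h6 : orderOf ((⟨a, haC⟩ : H) ^ n) ∣ 2 := by
      apply orderOf_dvd_of_pow_eq_one
      rw [← zpow_natCast, ← zpow_mul, mul_comm, zpow_mul]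
      have : (⟨a, haC⟩ : H) ^ ((2 : ℕ) : ℤ) = 1 := by
        rw [zpow_natCast, sq, h5]
      rw [this, one_zpow]
    obtain ⟨j, -, hj⟩ := (Nat.dvd_prime_pow Nat.prime_two).mp (show orderOf _ ∣ 2 ^ 1 by simpa using h6)
    exact ⟨j, by simpa using hj⟩
  obtain ⟨Q, hQ⟩ := hzp.exists_le_sylow
  obtain ⟨c, hcS⟩ := MulAction.exists_smul_eq H Q S₁
  have hcu : Commute (c : G) u := (Subgroup.mem_centralizer_singleton_iff.mp c.2)
  have ha2 : (c : G) * a * (c : G)⁻¹ ∈ P := by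
    have h2 : (⟨a, haC⟩ : H) ∈ (Q : Subgroup H) := hQ (Subgroup.mem_zpowers _)
    have h3 : c * (⟨a, haC⟩ : H) * c⁻¹ ∈ ((c • Q : Sylow 2 H) : Subgroup H) := by
      rw [Sylow.coe_subgroup_smul]
      exact ⟨_, h2, rfl⟩
    rw [hcS] at h3
    exact h3
  set a₀ := (c : G) * a * (c : G)⁻¹ with ha₀
  have ha₀a₀ : a₀ * a₀ = 1 := by
    rw [ha₀]
    calc (c : G) * a * (c : G)⁻¹ * ((c : G) * a * (c : G)⁻¹) = (c : G) * (a * a) * (c : G)⁻¹ := by group
      _ = 1 := by rw [haa]; group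
  have hconj2 : IsConj t a₀ := ha.trans (isConj_iff.mpr ⟨c, rfl⟩)
  have hconj3 : IsConj t (a₀ * u) := by
    refine hconj1.trans (isConj_iff.mpr ⟨c, ?_⟩)
    rw [ha₀]
    calc (c : G) * (a * u) * (c : G)⁻¹ = (c : G) * a * (u * (c : G)⁻¹) := by group
      _ = (c : G) * a * ((c : G)⁻¹ * u) := by
        rw [(hcu.inv_left).eq]
      _ = _ := by group
  obtain ⟨n₁, hn₁, hn₁'⟩ := h.exists_normalizer_of_isConj htP ha2 hconj2
  obtain ⟨n₂, hn₂, hn₂'⟩ := h.exists_normalizer_of_isConj htP (P.mul_mem ha2 hu) hconj3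
  apply hA n₁ hn₁ n₂ hn₂
  rw [hn₁', hn₂', ← mul_assoc, ha₀a₀, one_mul]

end GroupTheory

end Cfsg.Agent.Lib.ModRep.AbFrob
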