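import Cfsg.Agent.Lib.ModRep.AbFrob6

/-!
# The principal block when the automizer has order three: the orbit sums and the isotropic plane
-/

set_option autoImplicit false
set_option linter.style.haveILetI false
set_option linter.unusedSectionVars false

namespace Cfsg.Agent.Lib.ModRep.AbFrob

open Cfsg
open Cfsg.Agent.Lib.Blocks.Local Cfsg.Agent.Lib.Blocks.Central Cfsg.Agent.Lib.Blocks.General
open Cfsg.Agent.Lib.Char.Ortho Cfsg.Agent.Lib.ExcP.Gram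
open Cfsg.Agent.Lib.ModRep.Prime
open Cfsg.Agent.Lib.Blocks.Third (oneI)
open scoped ComplexConjugate

universe u

variable {G : Type u} [Group G] {p : ℕ} [hp : Fact p.Prime] {P : Subgroup G}

section Avoid

variable [Fintype G] [Fintype (IrrCharacter G)] [Fintype P] [Fintype (Nn P)]

/-- There is an element of `P^#` which is not a product of two `N`-conjugates of `t`. -/
theorem AbF.exists_avoid (h : AbF P p) (hm : Nat.card (Nn P) = 3 * Nat.card (Cn P))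
    (hcard : 4 < Nat.card P) {t : G} (ht : t ∈ P) (ht1 : t ≠ 1) (ht2 : t * t = 1) :
    ∃ u ∈ P, u ≠ 1 ∧ ∀ n₁ ∈ Nn P, ∀ n₂ ∈ Nn P, n₁ * t * n₁⁻¹ * (n₂ * t * n₂⁻¹) ≠ u := by
  classical
  let t₀ : P := ⟨t, ht⟩
  have ht₀ : t₀ ≠ 1 := fun h1 => ht1 (congrArg Subtype.val h1)
  let f : Nn P → P := fun n => cjP P n⁻¹ t₀
  have hs := sum_fiber (CC P) f (h.cj_eq_cj_iff ht₀) (fun _ => (1 : ℂ))
  have hO3 : (Finset.univ.image f).card = 3 := by
    simp only [Finset.sum_const, Finset.card_univ, nsmul_eq_mul, mul_one, card_CC] at hs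
    rw [← Nat.card_eq_fintype_card, hm] at hs
    have h3 : 3 * Nat.card (Cn P) = Nat.card (Cn P) * (Finset.univ.image f).card := by
      exact_mod_cast hs
    rw [mul_comm] at h3
    exact (Nat.eq_of_mul_eq_mul_left Nat.card_pos h3).symm
  obtain ⟨α, β, γ, -, -, -, hO⟩ := Finset.card_eq_three.mp hO3
  have hsq : ∀ x ∈ Finset.univ.image f, x * x = 1 := by
    intro x hx
    obtain ⟨n, -, rfl⟩ := Finset.mem_image.mp hx
    simp only [f]
    rw [← map_mul]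
    have : t₀ * t₀ = 1 := Subtype.ext ht2
    rw [this, map_one]
  have hcomm := h.comm
  let A : Finset P := {1, α * β, α * γ, β * γ}
  have hmemA : ∀ x ∈ Finset.univ.image f, ∀ y ∈ Finset.univ.image f, x * y ∈ A := by
    intro x hx y hy
    have hxx := hsq x hx
    rw [hO] at hx hy
    simp only [Finset.mem_insert, Finset.mem_singleton] at hx hy
    simp only [A, Finset.mem_insert, Finset.mem_singleton]
    rcases hx with rfl | rfl | rfl <;> rcases hy with rfl | rfl | rfl <;>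
      first
        | (left; exact hxx)
        | (right; left; rfl)
        | (right; right; left; rfl)
        | (right; right; right; rfl)
        | (right; left; exact hcomm _ _)
        | (right; right; left; exact hcomm _ _)
        | (right; right; right; exact hcomm _ _)
  obtain ⟨u, hu⟩ : ∃ u : P, u ∉ A := by
    by_contra hall
    push Not at hall
    have h1 : (Finset.univ : Finset P) ⊆ A := fun x _ => hall x
    have h2 := Finset.card_le_card h1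
    have h3 : A.card ≤ 4 := Finset.card_le_four
    rw [Finset.card_univ, ← Nat.card_eq_fintype_card] at h2
    omega
  refine ⟨u, u.2, ?_, ?_⟩
  · intro h1
    apply hu
    have : u = 1 := Subtype.ext h1
    rw [this]
    simp [A]
  · intro n₁ hn₁ n₂ hn₂ he
    apply hu
    have h1 := hmemA (f ⟨n₁, hn₁⟩) (Finset.mem_image_of_mem _ (Finset.mem_univ _)) (f ⟨n₂, hn₂⟩)
      (Finset.mem_image_of_mem _ (Finset.mem_univ _))
    have h2 : f ⟨n₁, hn₁⟩ * f ⟨n₂, hn₂⟩ = u := by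
      apply Subtype.ext
      rw [← he]
      simp [f, t₀]
    rwa [h2] at h1

end Avoid

section Cube

variable [Fintype G] [Fintype (IrrCharacter G)] [Fintype P] [Fintype (Nn P)] [Fintype (P →* ℂˣ)]
  [Fintype (DP P)]

/-- The orbit sum. -/
theorem AbF.orbit_sum (h : AbF P p) {t₀ : ℕ} {cls : DP P → Fin t₀}
    (hcls : ∀ a c, cls a = cls c ↔ (rP P) a c) (d₀ : DP P) (y : P) :
    (∑ d : DP P, if cls d = cls d₀ then ((d.1 y : ℂˣ) : ℂ) else 0) =
      (Nat.card (Cn P) : ℂ)⁻¹ * ∑ n : Nn P, ((d₀.1 (cjP P n y) : ℂˣ) : ℂ) := by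
  classical
  have hC0 : (Nat.card (Cn P) : ℂ) ≠ 0 := Nat.cast_ne_zero.mpr Nat.card_pos.ne'
  let f : Nn P → DP P := fun n => ⟨ac P n d₀.1, ac_ne_one d₀.2 n⟩
  have hf : ∀ n n', f n = f n' ↔ n⁻¹ * n' ∈ CC P := by
    intro n n'
    rw [← h.ac_eq_ac_iff d₀.2 n n']
    exact Subtype.ext_iff
  have h1 := sum_fiber (CC P) f hf (fun d => ((d.1 y : ℂˣ) : ℂ))
  have h2 : ∑ n : Nn P, ((d₀.1 (cjP P n y) : ℂˣ) : ℂ) = ∑ n, ((f n).1 y : ℂ) := rfl
  rw [h2, h1, card_CC, inv_mul_cancel_left₀ hC0, ← Finset.sum_filter]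
  apply Finset.sum_congr _ fun _ _ => rfl
  ext d
  simp only [Finset.mem_filter, Finset.mem_univ, true_and, Finset.mem_image]
  rw [hcls]
  constructor
  · rintro ⟨n, hn⟩
    exact ⟨n, Subtype.ext hn.symm⟩
  · rintro ⟨n, rfl⟩
    exact ⟨n, rfl⟩

/-- The sum of `Φ` along `cls`. -/
theorem AbF.sum_comp_cls (h : AbF P p) (hm : Nat.card (Nn P) = 3 * Nat.card (Cn P)) {t₀ : ℕ} {cls : DP P → Fin t₀}
    (hcls : ∀ a c, cls a = cls c ↔ (rP P) a c) (hsurj : Function.Surjective cls) (Φ : Fin t₀ → ℂ) :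
    ∑ d : DP P, Φ (cls d) = 3 * ∑ k, Φ k := by
  classical
  rw [Finset.sum_comp Φ cls, Finset.mul_sum]
  have h1 : Finset.univ.image cls = Finset.univ := by
    ext k
    simp only [Finset.mem_image, Finset.mem_univ, true_and, iff_true]
    exact hsurj k
  rw [h1]
  refine Finset.sum_congr rfl fun k _ => ?_
  obtain ⟨d₀, rfl⟩ := hsurj k
  have h2 := h.card_class hm d₀
  rw [Nat.card_eq_fintype_card, Fintype.card_subtype] at h2
  have h3 : (Finset.univ.filter fun d => cls d = cls d₀) = Finset.univ.filter fun d => (rP P) d d₀ := by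
    ext d
    simp only [Finset.mem_filter, Finset.mem_univ, true_and]
    exact hcls _ _
  rw [h3, h2, nsmul_eq_mul]
  norm_num

/-- The cube formula. -/
theorem AbF.cube (h : AbF P p) (hm : Nat.card (Nn P) = 3 * Nat.card (Cn P)) {t₀ : ℕ} {cls : DP P → Fin t₀}
    (hcls : ∀ a c, cls a = cls c ↔ (rP P) a c) (hsurj : Function.Surjective cls) (t u : P)
    (hav : ∀ n₁ n₂ n₃ : Nn P, cjP P n₁ t * cjP P n₂ t ≠ cjP P n₃ u) :
    ∑ k, (∑ d : DP P, if cls d = k then ((d.1 t : ℂˣ) : ℂ) else 0) *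
      (∑ d : DP P, if cls d = k then ((d.1 t : ℂˣ) : ℂ) else 0) *
      conj (∑ d : DP P, if cls d = k then ((d.1 u : ℂˣ) : ℂ) else 0) = -9 := by
  classical
  have hC0 : (Nat.card (Cn P) : ℂ) ≠ 0 := Nat.cast_ne_zero.mpr Nat.card_pos.ne'
  have h1 := h.sum_comp_cls hm hcls hsurj (fun k => (∑ d : DP P, if cls d = k then ((d.1 t : ℂˣ) : ℂ) else 0) *
      (∑ d : DP P, if cls d = k then ((d.1 t : ℂˣ) : ℂ) else 0) *
      conj (∑ d : DP P, if cls d = k then ((d.1 u : ℂˣ) : ℂ) else 0))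
  have h2 : ∀ d : DP P, (∑ d' : DP P, if cls d' = cls d then ((d'.1 t : ℂˣ) : ℂ) else 0) *
      (∑ d' : DP P, if cls d' = cls d then ((d'.1 t : ℂˣ) : ℂ) else 0) *
      conj (∑ d' : DP P, if cls d' = cls d then ((d'.1 u : ℂˣ) : ℂ) else 0) =
      ((Nat.card (Cn P) : ℂ)⁻¹) ^ 3 * ∑ n₁ : Nn P, ∑ n₂ : Nn P, ∑ n₃ : Nn P,
        ((d.1 (cjP P n₁ t * cjP P n₂ t * (cjP P n₃ u)⁻¹) : ℂˣ) : ℂ) := by
    intro d
    rw [h.orbit_sum hcls d t, h.orbit_sum hcls d u, map_mul, map_inv₀, map_natCast, map_sum]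
    have h3 : ∀ n₃ : Nn P, conj ((d.1 (cjP P n₃ u) : ℂˣ) : ℂ) = ((d.1 (cjP P n₃ u)⁻¹ : ℂˣ) : ℂ) :=
      fun n₃ => conj_hom d.1 _
    simp only [h3]
    have h4 : ∀ n₁ n₂ n₃ : Nn P, ((d.1 (cjP P n₁ t * cjP P n₂ t * (cjP P n₃ u)⁻¹) : ℂˣ) : ℂ) =
        ((d.1 (cjP P n₁ t) : ℂˣ) : ℂ) * ((d.1 (cjP P n₂ t) : ℂˣ) : ℂ) * ((d.1 (cjP P n₃ u)⁻¹ : ℂˣ) : ℂ) := by
      intro n₁ n₂ n₃
      rw [map_mul, map_mul, Units.val_mul, Units.val_mul]
    simp only [h4]
    have h5 : (∑ n₁ : Nn P, ∑ n₂ : Nn P, ∑ n₃ : Nn P, ((d.1 (cjP P n₁ t) : ℂˣ) : ℂ) * ((d.1 (cjP P n₂ t) : ℂˣ) : ℂ) *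
        ((d.1 (cjP P n₃ u)⁻¹ : ℂˣ) : ℂ)) = (∑ n : Nn P, ((d.1 (cjP P n t) : ℂˣ) : ℂ)) *
        (∑ n : Nn P, ((d.1 (cjP P n t) : ℂˣ) : ℂ)) * (∑ n : Nn P, ((d.1 (cjP P n u)⁻¹ : ℂˣ) : ℂ)) := by
      rw [Finset.sum_mul_sum, Finset.sum_mul]
      refine Finset.sum_congr rfl fun n₁ _ => ?_
      rw [Finset.sum_mul]
      refine Finset.sum_congr rfl fun n₂ _ => ?_
      rw [Finset.mul_sum]
    rw [h5]
    ring
  simp only [h2] at h1
  rw [← Finset.mul_sum] at h1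
  have h3 : ∑ d : DP P, ∑ n₁ : Nn P, ∑ n₂ : Nn P, ∑ n₃ : Nn P,
      ((d.1 (cjP P n₁ t * cjP P n₂ t * (cjP P n₃ u)⁻¹) : ℂˣ) : ℂ) = - ((Nat.card (Nn P) : ℂ) ^ 3) := by
    rw [Finset.sum_comm]
    have h4 : ∀ n₁ : Nn P, ∑ d : DP P, ∑ n₂ : Nn P, ∑ n₃ : Nn P,
        ((d.1 (cjP P n₁ t * cjP P n₂ t * (cjP P n₃ u)⁻¹) : ℂˣ) : ℂ) = - ((Nat.card (Nn P) : ℂ) ^ 2) := by
      intro n₁
      rw [Finset.sum_comm]
      have h5 : ∀ n₂ : Nn P, ∑ d : DP P, ∑ n₃ : Nn P,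
          ((d.1 (cjP P n₁ t * cjP P n₂ t * (cjP P n₃ u)⁻¹) : ℂˣ) : ℂ) = - (Nat.card (Nn P) : ℂ) := by
        intro n₂
        rw [Finset.sum_comm]
        have h6 : ∀ n₃ : Nn P, ∑ d : DP P,
            ((d.1 (cjP P n₁ t * cjP P n₂ t * (cjP P n₃ u)⁻¹) : ℂˣ) : ℂ) = -1 := by
          intro n₃
          rw [h.sum_DP, if_neg, zero_sub]
          intro h7
          exact hav n₁ n₂ n₃ (mul_inv_eq_one.mp h7)
        simp only [h6]
        rw [Finset.sum_const, Finset.card_univ, nsmul_eq_mul, ← Nat.card_eq_fintype_card]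
        ring
      simp only [h5]
      rw [Finset.sum_const, Finset.card_univ, nsmul_eq_mul, ← Nat.card_eq_fintype_card]
      ring
    simp only [h4]
    rw [Finset.sum_const, Finset.card_univ, nsmul_eq_mul, ← Nat.card_eq_fintype_card]
    ring
  rw [h3, hm] at h1
  push_cast at h1
  have h9 : (3 : ℂ) ≠ 0 := by norm_num
  have h10 : ((Nat.card (Cn P) : ℂ)⁻¹) ^ 3 * -((3 * (Nat.card (Cn P) : ℂ)) ^ 3) = -27 := by
    field_simp
    norm_num
  rw [h10] at h1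
  apply mul_left_cancel₀ h9
  rw [← h1]
  norm_num

end Cube

end Cfsg.Agent.Lib.ModRep.AbFrob
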