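import Cfsg.Agent.Lib.ModRep.AbFrob7

/-!
# The principal block when the automizer has order three: signs and degrees
-/

set_option autoImplicit false
set_option linter.style.haveILetI false
set_option linter.unusedSectionVars false

namespace Cfsg.Agent.Lib.ModRep.AbFrob

open Cfsg
open Cfsg.Agent.Lib.Blocks.Local Cfsg.Agent.Lib.Blocks.Central Cfsg.Agent.Lib.Blocks.General
open Cfsg.Agent.Lib.Char.Ortho Cfsg.Agent.Lib.ExcP.Gram
open Cfsg.Agent.Lib.ModRep.Prime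
open Cfsg.Agent.Lib.Blocks.Third (oneI)
open Cfsg.Agent.Lib.Char.Degree
open scoped ComplexConjugate

universe u

variable {G : Type u} [Group G] {p : ℕ} [hp : Fact p.Prime] {P : Subgroup G}

section Ker

variable [Fintype G]

/-- If `t` lies in no proper normal subgroup, a nonprincipal irreducible character
does not take its degree at `t`. -/
theorem value_ne_degree {t : G} (htn : ∀ K : Subgroup G, K.Normal → t ∈ K → K = ⊤)
    {χ : IrrCharacter G} (hχ : χ ≠ oneI G) : (χ : G → ℂ) t ≠ (χ : G → ℂ) 1 := by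
  classical
  intro ht
  have hc := Cfsg.Agent.Lib.Char.Basic.isCharacter_of_isIrrCharacter χ.2
  have h1 : charKer hc = ⊤ := htn _ inferInstance ((mem_charKer hc t).mpr ht)
  have h2 : ∀ g, (χ : G → ℂ) g = (χ : G → ℂ) 1 := by
    intro g
    have : g ∈ charKer hc := by rw [h1]; trivial
    exact (mem_charKer hc g).mp this
  have h3 := classInner_irr χ.2 (oneI G).2
  rw [if_neg] at h3
  · rw [classInner_def] at h3
    simp only [h2, Cfsg.Agent.Lib.Blocks.Third.oneI_apply, map_one, mul_one, Finset.sum_const,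
      Finset.card_univ, nsmul_eq_mul, ← Nat.card_eq_fintype_card] at h3
    have hG0 : (Nat.card G : ℂ) ≠ 0 := Nat.cast_ne_zero.mpr Nat.card_pos.ne'
    rw [inv_mul_cancel_left₀ hG0] at h3
    exact Cfsg.Agent.Lib.Char.Complete.irr_one_ne_zero χ.2 h3
  · intro h4
    exact hχ (Subtype.ext h4)

end Ker

section Second

variable [Fintype G] [Fintype (IrrCharacter G)] [Fintype P] [Fintype (Nn P)] [Fintype (P →* ℂˣ)]
  [Fintype (DP P)] {M : Ideal AlgInt}

open scoped Classical in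
/-- The split of a sum over the block. -/
theorem sum_block_split {t₀ : ℕ} {μ : Fin t₀ → IrrCharacter G} {X : Finset (IrrCharacter G)}
    (hinj : Function.Injective μ) (hμB : ∀ k, μ k ∈ principalBlock M G)
    (hX : ∀ χ, χ ∈ X ↔ χ ∈ principalBlock M G ∧ χ ∉ Set.range μ) (F : IrrCharacter G → ℂ) :
    ∑ j : IrrCharacter G, (if j ∈ principalBlock M G then F j else 0) =
      ∑ χ ∈ X, F χ + ∑ k, F (μ k) := by
  rw [← Finset.sum_filter]
  have h1 : (Finset.univ.filter fun j => j ∈ principalBlock M G) = X ∪ Finset.univ.image μ := by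
    ext j
    simp only [Finset.mem_filter, Finset.mem_univ, true_and, Finset.mem_union, Finset.mem_image, hX]
    constructor
    · intro hj
      by_cases h2 : j ∈ Set.range μ
      · right
        exact h2
      · left
        exact ⟨hj, h2⟩
    · rintro (⟨h2, -⟩ | ⟨k, -, rfl⟩)
      · exact h2
      · exact hμB k
  have h2 : Disjoint X (Finset.univ.image μ) := by
    rw [Finset.disjoint_left]
    intro j hj hj'
    obtain ⟨k, -, rfl⟩ := Finset.mem_image.mp hj'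
    exact ((hX _).mp hj).2 ⟨k, rfl⟩
  rw [h1, Finset.sum_union h2, Finset.sum_image (fun a _ b _ hab => hinj hab)]

/-- The sum of all orbit sums. -/
theorem AbF.sum_orbits (h : AbF P p) {t₀ : ℕ} (cls : DP P → Fin t₀) {y : P} (hy : y ≠ 1) :
    ∑ k, (∑ d : DP P, if cls d = k then ((d.1 y : ℂˣ) : ℂ) else 0) = -1 := by
  classical
  rw [Finset.sum_comm]
  simp only [Finset.sum_ite_eq, Finset.mem_univ, if_true]
  rw [h.sum_DP, if_neg hy, zero_sub]

/-- The integrality of the value at an involution. -/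
theorem exists_int_value (χ : IrrCharacter G) {t : G} (ht : orderOf t = 2) : ∃ s : ℤ, (χ : G → ℂ) t = s := by
  obtain ⟨m, hm⟩ := Cfsg.Agent.Lib.V4Block.exists_deg_add_value χ ht
  obtain ⟨n, hn⟩ := Cfsg.Agent.Lib.Char.Basic.exists_deg_of_isCharacter
    (Cfsg.Agent.Lib.Char.Basic.isCharacter_of_isIrrCharacter χ.2)
  refine ⟨2 * m - n, ?_⟩
  push_cast
  rw [← hm, hn]
  ring

/-- The Sylow subgroup contains a conjugate of an involution, when `p = 2`. -/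
theorem AbF.exists_conj_mem (h : AbF P p) (hp2 : p = 2) {t : G} (ht : orderOf t = 2) :
    ∃ t' ∈ P, IsConj t t' := by
  classical
  subst hp2
  let S : Sylow 2 G := h.pgrp.toSylow h.syl
  have hzp : IsPGroup 2 (Subgroup.zpowers t) := by
    rw [IsPGroup.iff_orderOf]
    rintro ⟨x, hx⟩
    have h6 : orderOf (⟨x, hx⟩ : Subgroup.zpowers t) ∣ Nat.card (Subgroup.zpowers t) := orderOf_dvd_natCard _
    rw [Nat.card_zpowers, ht] at h6
    obtain ⟨j, -, hj⟩ := (Nat.dvd_prime_pow Nat.prime_two).mp (show orderOf _ ∣ 2 ^ 1 by simpa using h6)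
    exact ⟨j, by simpa using hj⟩
  obtain ⟨Q, hQ⟩ := hzp.exists_le_sylow
  obtain ⟨c, hcS⟩ := MulAction.exists_smul_eq G Q S
  have h2 : t ∈ (Q : Subgroup G) := hQ (Subgroup.mem_zpowers _)
  have h3 : c * t * c⁻¹ ∈ ((c • Q : Sylow 2 G) : Subgroup G) := by
    rw [Sylow.coe_subgroup_smul]
    exact ⟨_, h2, rfl⟩
  rw [hcS] at h3
  exact ⟨_, h3, isConj_iff.mpr ⟨c, rfl⟩⟩

open scoped Classical in
/-- The identities among the values of the block at an involution. -/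
theorem AbF.isotropic (h : AbF P p) (hM : IsPModular p M)
    (hm : Nat.card (Nn P) = 3 * Nat.card (Cn P)) (hm2 : 4 < Nat.card P)
    {δ : ℤ} {t₀ : ℕ} {a : IrrCharacter G → ℤ} {μ : Fin t₀ → IrrCharacter G} {cls : DP P → Fin t₀}
    {X : Finset (IrrCharacter G)} (hXcard : X.card = 3) (hδ : δ = 1 ∨ δ = -1) (hinj : Function.Injective μ)
    (hcls : ∀ a c, cls a = cls c ↔ (rP P) a c) (hsurj : Function.Surjective cls)
    (hμB : ∀ k, μ k ∈ principalBlock M G)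
    (hμv : ∀ k, ∀ y₀ : P, y₀ ≠ 1 → (μ k : G → ℂ) y₀ =
        (δ : ℂ) * ∑ d : DP P, if cls d = k then ((d.1 y₀ : ℂˣ) : ℂ) else 0)
    (hX : ∀ χ, χ ∈ X ↔ χ ∈ principalBlock M G ∧ χ ∉ Set.range μ)
    (ha : ∀ χ ∈ X, a χ = 1 ∨ a χ = -1) (hav : ∀ χ ∈ X, ∀ y₀ : P, y₀ ≠ 1 → (χ : G → ℂ) y₀ = (a χ : ℂ))
    (hR : ∀ k g, ¬ p ∣ orderOf g → ∑ χ ∈ X, (a χ : ℂ) * (χ : G → ℂ) g = (δ : ℂ) * (μ k : G → ℂ) g)
    {t : G} (ht : orderOf t = 2) (k₀ : Fin t₀) :
    ∃ s₄ : ℤ, (∑ χ ∈ X, (a χ : ℂ) * (χ : G → ℂ) t) - (δ : ℂ) * s₄ = 0 ∧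
      (∑ χ ∈ X, (a χ : ℂ) * ((χ : G → ℂ) t * (χ : G → ℂ) t / (χ : G → ℂ) 1)) -
        (δ : ℂ) * ((s₄ : ℂ) * s₄ / (μ k₀ : G → ℂ) 1) = 0 := by
  classical
  have hδ0 : (δ : ℂ) ≠ 0 := by
    rcases hδ with rfl | rfl <;> norm_num
  have hδ2 : (δ : ℂ) * δ = 1 := by
    rcases hδ with rfl | rfl <;> norm_num
  have hreg1 : ¬ p ∣ orderOf (1 : G) := by
    rw [orderOf_one]
    exact hp.out.one_lt.ne' ∘ Nat.dvd_one.mp
  have hdeg : ∀ k, (μ k : G → ℂ) 1 = (μ k₀ : G → ℂ) 1 := by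
    intro k
    have h1 := hR k 1 hreg1
    have h2 := hR k₀ 1 hreg1
    exact mul_left_cancel₀ hδ0 (h1.symm.trans h2)
  have ht' : t * t = 1 := by
    rw [← sq, ← ht, pow_orderOf_eq_one]
  have hconjX : ∀ χ ∈ X, ∀ u : P, u ≠ 1 → conj ((χ : G → ℂ) u) = (a χ : ℂ) := by
    intro χ hχ u hu
    rw [hav χ hχ u hu, map_intCast]
  by_cases hp2 : p = 2
  · -- `p = 2`
    obtain ⟨t', ht'P, hc⟩ := h.exists_conj_mem hp2 ht
    have hclass : ∀ j : IrrCharacter G, (j : G → ℂ) t = (j : G → ℂ) t' := by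
      intro j
      obtain ⟨c, rfl⟩ := isConj_iff.mp hc
      exact (Cfsg.Agent.Lib.Char.Basic.isClassFunction_of_isIrrCharacter j.2 t c).symm
    have ht1 : t' ≠ 1 := by
      rintro rfl
      have h0 : t = 1 := isConj_one_right.mp hc.symm
      rw [h0, orderOf_one] at ht
      omega
    have ht't' : t' * t' = 1 := mul_self_of_isConj ht' hc
    obtain ⟨u, huP, hu1, hA⟩ := h.exists_avoid hm hm2 ht'P ht1 ht't'
    have hvan := h.sum_vanish hM huP hu1 t' (h.no_product_two hm hp2 ht'P ht't' huP hu1 hA)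
    rw [sum_block_split hinj hμB hX] at hvan
    let t₁ : P := ⟨t', ht'P⟩
    let u₁ : P := ⟨u, huP⟩
    have ht₁ : t₁ ≠ 1 := fun h1 => ht1 (congrArg Subtype.val h1)
    have hu₁ : u₁ ≠ 1 := fun h1 => hu1 (congrArg Subtype.val h1)
    have hXt : ∀ χ ∈ X, (χ : G → ℂ) t = (a χ : ℂ) := by
      intro χ hχ
      rw [hclass]
      exact hav χ hχ t₁ ht₁
    have haa : ∀ χ ∈ X, (a χ : ℂ) * (a χ : ℂ) = 1 := by
      intro χ hχ
      rcases ha χ hχ with h1 | h1 <;> rw [h1] <;> norm_num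
    have havoid : ∀ n₁ n₂ n₃ : Nn P, cjP P n₁ t₁ * cjP P n₂ t₁ ≠ cjP P n₃ u₁ := by
      intro n₁ n₂ n₃ he
      have h1 := congrArg (fun x : P => (x : G)) he
      simp only [Subgroup.coe_mul, coe_cjP] at h1
      apply hA ((n₃ : G) * (n₁ : G)⁻¹) ((Nn P).mul_mem n₃.2 ((Nn P).inv_mem n₁.2))
        ((n₃ : G) * (n₂ : G)⁻¹) ((Nn P).mul_mem n₃.2 ((Nn P).inv_mem n₂.2))
      have h2 : (n₃ : G) * ((n₁ : G)⁻¹ * ((t₁ : P) : G) * (n₁ : G) * ((n₂ : G)⁻¹ * ((t₁ : P) : G) * (n₂ : G))) * (n₃ : G)⁻¹ =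
          (n₃ : G) * ((n₃ : G)⁻¹ * ((u₁ : P) : G) * (n₃ : G)) * (n₃ : G)⁻¹ := by rw [h1]
      have h3 : (n₃ : G) * ((n₃ : G)⁻¹ * ((u₁ : P) : G) * (n₃ : G)) * (n₃ : G)⁻¹ = u := by
        simp only [u₁]
        group
      rw [← h3, ← h2]
      simp only [t₁]
      group
    have hcube := h.cube hm hcls hsurj t₁ u₁ havoid
    have hY : ∑ k, (μ k : G → ℂ) t' * (μ k : G → ℂ) t' * conj ((μ k : G → ℂ) u) / (μ k : G → ℂ) 1 =
        (δ : ℂ) * (-9) / (μ k₀ : G → ℂ) 1 := by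
      rw [← hcube, Finset.mul_sum, Finset.sum_div]
      refine Finset.sum_congr rfl fun k _ => ?_
      have e1 : (μ k : G → ℂ) t' = (δ : ℂ) * ∑ d : DP P, if cls d = k then ((d.1 t₁ : ℂˣ) : ℂ) else 0 := hμv k t₁ ht₁
      have e2 : (μ k : G → ℂ) u = (δ : ℂ) * ∑ d : DP P, if cls d = k then ((d.1 u₁ : ℂˣ) : ℂ) else 0 := hμv k u₁ hu₁
      rw [hdeg k, e1, e2, map_mul, map_intCast]
      generalize (∑ d : DP P, if cls d = k then ((d.1 t₁ : ℂˣ) : ℂ) else 0) = f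
      generalize conj (∑ d : DP P, if cls d = k then ((d.1 u₁ : ℂˣ) : ℂ) else 0) = c
      calc (δ : ℂ) * f * ((δ : ℂ) * f) * ((δ : ℂ) * c) / (μ k₀ : G → ℂ) 1 =
          ((δ : ℂ) * δ) * ((δ : ℂ) * (f * f * c) / (μ k₀ : G → ℂ) 1) := by ring
        _ = _ := by rw [hδ2, one_mul]
    have hXs : ∑ χ ∈ X, (χ : G → ℂ) t' * (χ : G → ℂ) t' * conj ((χ : G → ℂ) u) / (χ : G → ℂ) 1 =
        ∑ χ ∈ X, (a χ : ℂ) * ((χ : G → ℂ) t * (χ : G → ℂ) t / (χ : G → ℂ) 1) := by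
      refine Finset.sum_congr rfl fun χ hχ => ?_
      rw [hconjX χ hχ u₁ hu₁, hclass χ]
      ring
    rw [hXs, hY] at hvan
    refine ⟨3 * δ, ?_, ?_⟩
    · rw [Finset.sum_congr rfl (fun χ hχ => by rw [hXt χ hχ, haa χ hχ]), Finset.sum_const, hXcard]
      push_cast
      linear_combination -3 * hδ2
    · push_cast
      have e : (δ : ℂ) * ((3 * δ) * (3 * δ) / (μ k₀ : G → ℂ) 1) = (δ : ℂ) * 9 / (μ k₀ : G → ℂ) 1 := by
        calc (δ : ℂ) * ((3 * δ) * (3 * δ) / (μ k₀ : G → ℂ) 1) = (δ : ℂ) * (9 * (δ * δ)) / (μ k₀ : G → ℂ) 1 := by ring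
          _ = _ := by rw [hδ2, mul_one]
      rw [e]
      linear_combination hvan
  · -- `p` odd
    have hreg : ¬ p ∣ orderOf t := by
      rw [ht]
      intro hd
      exact hp2 ((Nat.prime_dvd_prime_iff_eq hp.out Nat.prime_two).mp hd)
    obtain ⟨s₄, hs₄⟩ := exists_int_value (μ k₀) ht
    obtain ⟨u, hu⟩ : ∃ u : P, u ≠ 1 := by
      haveI : Nontrivial P := by
        rw [← Finite.one_lt_card_iff_nontrivial]
        omega
      exact exists_ne 1
    have hu1 : (u : G) ≠ 1 := fun h1 => hu (Subtype.ext h1)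
    have hvan := h.sum_vanish hM u.2 hu1 t (h.no_product_odd hm hp2 ht' u.2 hu1)
    rw [sum_block_split hinj hμB hX] at hvan
    have hμt : ∀ k, (μ k : G → ℂ) t = (s₄ : ℂ) := by
      intro k
      rw [← hs₄]
      have h1 := hR k t hreg
      have h2 := hR k₀ t hreg
      exact mul_left_cancel₀ hδ0 (h1.symm.trans h2)
    have hY : ∑ k, (μ k : G → ℂ) t * (μ k : G → ℂ) t * conj ((μ k : G → ℂ) u) / (μ k : G → ℂ) 1 =
        - ((δ : ℂ) * ((s₄ : ℂ) * s₄ / (μ k₀ : G → ℂ) 1)) := by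
      have h1 : ∀ k, (μ k : G → ℂ) t * (μ k : G → ℂ) t * conj ((μ k : G → ℂ) u) / (μ k : G → ℂ) 1 =
          ((s₄ : ℂ) * s₄ / (μ k₀ : G → ℂ) 1) * conj ((μ k : G → ℂ) u) := by
        intro k
        rw [hμt k, hdeg k]
        ring
      simp only [h1]
      rw [← Finset.mul_sum, ← map_sum]
      have h2 : ∑ k, (μ k : G → ℂ) u = - (δ : ℂ) := by
        simp only [hμv _ u hu]
        rw [← Finset.mul_sum, h.sum_orbits cls hu]
        ring
      rw [h2, map_neg, map_intCast]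
      ring
    have hXs : ∑ χ ∈ X, (χ : G → ℂ) t * (χ : G → ℂ) t * conj ((χ : G → ℂ) u) / (χ : G → ℂ) 1 =
        ∑ χ ∈ X, (a χ : ℂ) * ((χ : G → ℂ) t * (χ : G → ℂ) t / (χ : G → ℂ) 1) := by
      refine Finset.sum_congr rfl fun χ hχ => ?_
      rw [hconjX χ hχ u hu]
      ring
    rw [hXs, hY] at hvan
    refine ⟨s₄, ?_, ?_⟩
    · rw [hR k₀ t hreg, hs₄]
      ring
    · linear_combination hvan

end Second

end Cfsg.Agent.Lib.ModRep.AbFrob
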