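import Cfsg.Agent.Lib.ModRep.AbFrob8
import Cfsg.Agent.Lib.ModRep.AbFrob4

/-!
# The principal block when the automizer has order three, in final form
-/

set_option autoImplicit false
set_option linter.style.haveILetI false
set_option linter.unusedSectionVars false

namespace Cfsg.Agent.Lib.ModRep.AbFrob

open Cfsg
open Cfsg.Agent.Lib.Blocks.Local Cfsg.Agent.Lib.Blocks.Central Cfsg.Agent.Lib.Blocks.General
open Cfsg.Agent.Lib.Char.Ortho Cfsg.Agent.Lib.ExcP.Gram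
open Cfsg.Agent.Lib.Blocks.Third (oneI)
open scoped ComplexConjugate

universe u

variable {G : Type u} [Group G] {p : ℕ} [hp : Fact p.Prime] {P : Subgroup G}

theorem AbF.final3 [Finite G] (h : AbF P p) {M : Ideal AlgInt} (hM : IsPModular p M)
    (hm2 : 3 + 1 < Nat.card P)
    (hCN : (Subgroup.centralizer (P : Set G)).relIndex (Subgroup.normalizer (P : Set G)) = 3) :
    ∃ (X Y : Set (Cfsg.IrrCharacter G)), Cfsg.principalBlock M G = X ∪ Y ∧ Disjoint X Y ∧ Nat.card X = 3 ∧ Nat.card Y = (Nat.card P - 1) / 3 ∧ (∃ χ₁ ∈ X, (χ₁ : G → ℂ) = fun _ => 1) ∧ ∃ (a : Cfsg.IrrCharacter G → ℤ) (δ : ℤ) (ζ : (P →* ℂˣ) → Cfsg.IrrCharacter G), (δ = 1 ∨ δ = -1) ∧ (∀ χ ∈ X, (a χ = 1 ∨ a χ = -1) ∧ ∀ z y : G, Cfsg.IsPPart p z y → y ∈ P → y ≠ 1 → (χ : G → ℂ) z = (a χ : ℂ)) ∧ (∀ ψ : P →* ℂˣ, ψ ≠ 1 → ζ ψ ∈ Y) ∧ (∀ η ∈ Y, ∃ ψ : P →* ℂˣ, ψ ≠ 1 ∧ ζ ψ = η) ∧ (∀ ψ ψ' : P →* ℂˣ, ψ ≠ 1 → (∃ n : G, n ∈ Subgroup.normalizer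 (P : Set G) ∧ ∀ w w' : P, (w' : G) = n * w * n⁻¹ → ψ' w' = ψ w) → ζ ψ' = ζ ψ) ∧ (∀ ψ : P →* ℂˣ, ψ ≠ 1 → ∀ (z : G) (y : P), Cfsg.IsPPart p z (y : G) → (y : G) ≠ 1 → (ζ ψ : G → ℂ) z = (δ : ℂ) * ∑ᶠ ψ' ∈ {ψ' : P →* ℂˣ | ∃ n : G, n ∈ Subgroup.normalizer (P : Set G) ∧ ∀ w w' : P, (w' : G) = n * w * n⁻¹ → ψ' w' = ψ w}, ((ψ' y : ℂˣ) : ℂ)) ∧ ((∃ t : G, orderOf t = 2 ∧ ∀ K : Subgroup G, K.Normal → t ∈ K → K = ⊤) → Nat.card {χ : Cfsg.IrrCharacter G // χ ∈ X ∧ (χ : G → ℂ) ≠ (fun _ => 1) ∧ a χ = -1} + (if δ = 1 then 1 else 0) = 2 ∧ ∀ η ∈ Y, IsSquare (Cfsg.charDegree (η : G → ℂ) * ∏ᶠ χ ∈ {χ : Cfsg.IrrCharacter G | χ ∈ X ∧ (χ : G → ℂ) ≠ fun _ => 1}, Cfsg.charDegree (χ : G → ℂ))) := by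
  classical
  letI : Fintype G := Fintype.ofFinite G
  have := Cfsg.Agent.Lib.Char.Ortho.finite_irrCharacter (G := G)
  letI : Fintype (IrrCharacter G) := Fintype.ofFinite _
  letI : Fintype P := Fintype.ofFinite _
  letI : Fintype (Nn P) := Fintype.ofFinite _
  have := finite_hom h.comm
  letI : Fintype (P →* ℂˣ) := Fintype.ofFinite _
  letI : Fintype (DP P) := Fintype.ofFinite _
  haveI := isPrime_of_pModular hM
  have hN : Nat.card (Nn P) = 3 * Nat.card (Cn P) := by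
    have hle : Cn P ≤ Nn P := Subgroup.centralizer_le_normalizer _
    have h1 := Subgroup.card_mul_index ((Cn P).subgroupOf (Nn P))
    have h2 : Nat.card ((Cn P).subgroupOf (Nn P)) = Nat.card (Cn P) :=
      Nat.card_congr (Subgroup.subgroupOfEquivOfLe hle).toEquiv
    rw [h2] at h1
    rw [← h1, ← hCN, mul_comm]
    rfl
  obtain ⟨δ, t₀, a, μ, cls, X, hδ, hte, ht₀, hinj, hcls, hsurj, hμB, hμ1, hμv, hXcard, hoX, hXmem, ha, hXval, hao, hR⟩ :=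
    h.main3 hM hN (by omega)
  have htdiv : (Nat.card P - 1) / 3 = t₀ := Nat.div_eq_of_eq_mul_left (by norm_num) hte.symm
  have hδ0 : (δ : ℂ) ≠ 0 := by
    rcases hδ with rfl | rfl <;> norm_num
  have hreg1 : ¬ p ∣ orderOf (1 : G) := by
    rw [orderOf_one]
    exact hp.out.one_lt.ne' ∘ Nat.dvd_one.mp
  have hdeg : ∀ k k', (μ k : G → ℂ) 1 = (μ k' : G → ℂ) 1 := by
    intro k k'
    exact mul_left_cancel₀ hδ0 ((hR k 1 hreg1).symm.trans (hR k' 1 hreg1))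
  let ζ : (P →* ℂˣ) → IrrCharacter G := fun ψ => if hψ : ψ ≠ 1 then μ (cls ⟨ψ, hψ⟩) else μ ⟨0, by omega⟩
  have hζ : ∀ (ψ : P →* ℂˣ) (hψ : ψ ≠ 1), ζ ψ = μ (cls ⟨ψ, hψ⟩) := by
    intro ψ hψ
    simp only [ζ, dif_pos hψ]
  have hζB : ∀ ψ : P →* ℂˣ, ζ ψ ∈ principalBlock M G := by
    intro ψ
    by_cases hψ : ψ ≠ 1
    · rw [hζ ψ hψ]
      exact hμB _
    · simp only [ζ, dif_neg hψ]
      exact hμB _
  have hXB : ∀ χ ∈ X, χ ∈ principalBlock M G := fun χ hχ => ((hXmem χ).mp hχ).1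
  refine ⟨↑X, Set.range μ, ?_, ?_, ?_, ?_, ?_, a, δ, ζ, hδ, ?_, ?_, ?_, ?_, ?_, ?_⟩
  · ext χ
    simp only [Set.mem_union, Finset.mem_coe]
    constructor
    · intro hχ
      by_cases h1 : χ ∈ Set.range μ
      · right
        exact h1
      · left
        exact (hXmem χ).mpr ⟨hχ, h1⟩
    · rintro (h1 | ⟨k, rfl⟩)
      · exact hXB χ h1
      · exact hμB k
  · rw [Set.disjoint_left]
    intro χ h1 h2
    exact ((hXmem χ).mp h1).2 h2
  · rw [Nat.card_coe_set_eq, Set.ncard_coe_finset, hXcard]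
  · rw [Nat.card_range_of_injective hinj, Nat.card_eq_fintype_card, Fintype.card_fin, htdiv]
  · refine ⟨oneI G, hoX, ?_⟩
    funext x
    simp
  · intro χ hχ
    refine ⟨ha χ hχ, ?_⟩
    intro w y hw hy hy1
    rw [h.value_of_isPPart hM (hXB χ hχ) hw hy hy1]
    exact hXval χ hχ ⟨y, hy⟩ (fun h1 => hy1 (congrArg Subtype.val h1))
  · intro ψ hψ
    rw [hζ ψ hψ]
    exact ⟨_, rfl⟩
  · rintro _ ⟨k, rfl⟩
    obtain ⟨d, rfl⟩ := hsurj k
    exact ⟨d.1, d.2, by rw [hζ d.1 d.2]⟩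
  · rintro ψ ψ' hψ ⟨n, hn, hnψ⟩
    have h1 := eq_ac_of_forall hn hnψ
    have hψ' : ψ' ≠ 1 := by
      rw [h1]
      exact ac_ne_one hψ _
    rw [hζ ψ hψ, hζ ψ' hψ']
    congr 1
    exact (hcls _ _).mpr ⟨⟨n, hn⟩, h1⟩
  · intro ψ hψ w y hw hy1
    rw [h.value_of_isPPart hM (hζB ψ) hw y.2 hy1, hζ ψ hψ]
    have hy1' : y ≠ 1 := fun h1 => hy1 (congrArg Subtype.val h1)
    rw [hμv _ y hy1']
    congr 1
    let T : Finset (P →* ℂˣ) := (Finset.univ.filter fun d : DP P => cls d = cls ⟨ψ, hψ⟩).map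
      (Function.Embedding.subtype _)
    have hT : (↑T : Set (P →* ℂˣ)) = {ψ' : P →* ℂˣ | ∃ n : G, n ∈ Subgroup.normalizer (P : Set G) ∧
        ∀ w w' : P, (w' : G) = n * w * n⁻¹ → ψ' w' = ψ w} := by
      ext ψ'
      simp only [T, Finset.coe_map, Set.mem_image, Finset.mem_coe, Finset.mem_filter, Finset.mem_univ,
        true_and, Function.Embedding.coe_subtype, Set.mem_ofPred_eq]
      constructor
      · rintro ⟨d, hd, rfl⟩
        obtain ⟨n, hn⟩ := (hcls _ _).mp hd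
        refine ⟨n, n.2, fun w w' hw => ?_⟩
        rw [hn]
        exact forall_of_eq_ac n w w' hw
      · rintro ⟨n, hn, hnψ⟩
        have h1 := eq_ac_of_forall hn hnψ
        have hψ' : ψ' ≠ 1 := by
          rw [h1]
          exact ac_ne_one hψ _
        exact ⟨⟨ψ', hψ'⟩, (hcls _ _).mpr ⟨⟨n, hn⟩, h1⟩, rfl⟩
    rw [← hT, finsum_mem_coe_finset, Finset.sum_map, Finset.sum_filter]
    rfl
  · rintro ⟨t, ht, htn⟩
    -- the nonprincipal members of `X`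
    have hcard2 : (X.erase (oneI G)).card = 2 := by
      rw [Finset.card_erase_of_mem hoX, hXcard]
    obtain ⟨χ₂, χ₃, hne, hX2⟩ := Finset.card_eq_two.mp hcard2
    have hXeq : X = insert (oneI G) {χ₂, χ₃} := by
      rw [← hX2, Finset.insert_erase hoX]
    have hχ₂X : χ₂ ∈ X.erase (oneI G) := by
      rw [hX2]
      simp
    have hχ₃X : χ₃ ∈ X.erase (oneI G) := by
      rw [hX2]
      simp
    have hχ₂1 : χ₂ ≠ oneI G := (Finset.mem_erase.mp hχ₂X).1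
    have hχ₃1 : χ₃ ≠ oneI G := (Finset.mem_erase.mp hχ₃X).1
    have hχ₂X' : χ₂ ∈ X := (Finset.mem_erase.mp hχ₂X).2
    have hχ₃X' : χ₃ ∈ X := (Finset.mem_erase.mp hχ₃X).2
    have hnot : oneI G ∉ ({χ₂, χ₃} : Finset (IrrCharacter G)) := by
      simp only [Finset.mem_insert, Finset.mem_singleton, not_or]
      exact ⟨hχ₂1.symm, hχ₃1.symm⟩
    have hsumX : ∀ F : IrrCharacter G → ℂ, ∑ χ ∈ X, F χ = F (oneI G) + (F χ₂ + F χ₃) := by
      intro F
      rw [hXeq, Finset.sum_insert hnot, Finset.sum_pair hne]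
    let k₀ : Fin t₀ := ⟨0, by omega⟩
    obtain ⟨s₄, hiso1, hiso2⟩ := h.isotropic hM hN (by omega) hXcard hδ hinj hcls hsurj hμB hμv hXmem ha hXval hR ht k₀
    rw [hsumX] at hiso1 hiso2
    obtain ⟨s₂, hs₂⟩ := exists_int_value χ₂ ht
    obtain ⟨s₃, hs₃⟩ := exists_int_value χ₃ ht
    have hx₂ := Cfsg.Agent.Lib.Char.Degree.charDegree_natCast
      (Cfsg.Agent.Lib.Char.Basic.isCharacter_of_isIrrCharacter χ₂.2)
    have hx₃ := Cfsg.Agent.Lib.Char.Degree.charDegree_natCast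
      (Cfsg.Agent.Lib.Char.Basic.isCharacter_of_isIrrCharacter χ₃.2)
    have hx₄ := Cfsg.Agent.Lib.Char.Degree.charDegree_natCast
      (Cfsg.Agent.Lib.Char.Basic.isCharacter_of_isIrrCharacter (μ k₀).2)
    obtain ⟨x₂, hx₂'⟩ : ∃ x₂, charDegree (χ₂ : G → ℂ) = x₂ := ⟨_, rfl⟩
    obtain ⟨x₃, hx₃'⟩ : ∃ x₃, charDegree (χ₃ : G → ℂ) = x₃ := ⟨_, rfl⟩
    obtain ⟨x₄, hx₄'⟩ : ∃ x₄, charDegree (μ k₀ : G → ℂ) = x₄ := ⟨_, rfl⟩
    rw [hx₂'] at hx₂
    rw [hx₃'] at hx₃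
    rw [hx₄'] at hx₄
    have hne0 : ∀ {x : ℕ} {χ : IrrCharacter G}, (x : ℂ) = (χ : G → ℂ) 1 → x ≠ 0 := by
      rintro x χ hx rfl
      exact Cfsg.Agent.Lib.Char.Complete.irr_one_ne_zero χ.2 (by rw [← hx]; simp)
    have hoI1 : ((oneI G : IrrCharacter G) : G → ℂ) 1 = 1 := by simp
    have hoIt : ((oneI G : IrrCharacter G) : G → ℂ) t = 1 := by simp
    have hi : 1 + a χ₂ * x₂ + a χ₃ * x₃ + (-δ) * x₄ = 0 := by
      have h1 := hR k₀ 1 hreg1
      rw [hsumX, hoI1, hao, ← hx₂, ← hx₃, ← hx₄] at h1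
      have h2 : ((1 + a χ₂ * x₂ + a χ₃ * x₃ + (-δ) * x₄ : ℤ) : ℂ) = 0 := by
        push_cast
        linear_combination h1
      exact_mod_cast h2
    have hii : 1 + a χ₂ * s₂ + a χ₃ * s₃ + (-δ) * s₄ = 0 := by
      rw [hoIt, hao, hs₂, hs₃] at hiso1
      have h2 : ((1 + a χ₂ * s₂ + a χ₃ * s₃ + (-δ) * s₄ : ℤ) : ℂ) = 0 := by
        push_cast
        push_cast at hiso1
        linear_combination hiso1
      exact_mod_cast h2
    have hiii : (1 : ℚ) + (a χ₂ : ℚ) * (s₂ : ℚ) ^ 2 / x₂ + (a χ₃ : ℚ) * (s₃ : ℚ) ^ 2 / x₃ +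
        ((-δ : ℤ) : ℚ) * (s₄ : ℚ) ^ 2 / x₄ = 0 := by
      rw [hoIt, hoI1, hao, hs₂, hs₃, ← hx₂, ← hx₃, ← hx₄] at hiso2
      have h2 : (((1 : ℚ) + (a χ₂ : ℚ) * (s₂ : ℚ) ^ 2 / x₂ + (a χ₃ : ℚ) * (s₃ : ℚ) ^ 2 / x₃ +
          ((-δ : ℤ) : ℚ) * (s₄ : ℚ) ^ 2 / x₄ : ℚ) : ℂ) = 0 := by
        push_cast
        push_cast at hiso2
        linear_combination hiso2
      exact_mod_cast h2
    have hsq1 : ∀ e : ℤ, (e = 1 ∨ e = -1) → e ^ 2 = 1 := by
      rintro e (rfl | rfl) <;> norm_num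
    have hnes : s₂ ≠ (x₂ : ℤ) := by
      intro h1
      apply Cfsg.Agent.Lib.ModRep.AbFrob.value_ne_degree htn hχ₂1
      rw [hs₂, ← hx₂, h1]
      simp
    obtain ⟨hprod, hsq⟩ := numeric (hne0 hx₂) (hne0 hx₃) (hne0 hx₄) (hsq1 _ (ha χ₂ hχ₂X')) (hsq1 _ (ha χ₃ hχ₃X'))
      (hsq1 (-δ) (by rcases hδ with rfl | rfl <;> norm_num)) hi hii hiii hnes
    constructor
    · -- the number of negative signs
      have hcount : Nat.card {χ : IrrCharacter G // χ ∈ (↑X : Set (IrrCharacter G)) ∧ (χ : G → ℂ) ≠ (fun _ => 1) ∧ a χ = -1} =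
          (({χ₂, χ₃} : Finset (IrrCharacter G)).filter fun χ => a χ = -1).card := by
        rw [Nat.card_eq_fintype_card, Fintype.card_subtype]
        congr 1
        ext χ
        simp only [Finset.mem_filter, Finset.mem_univ, true_and, Finset.mem_coe]
        rw [← hX2, Finset.mem_erase]
        constructor
        · rintro ⟨h1, h2, h3⟩
          refine ⟨⟨?_, h1⟩, h3⟩
          rintro rfl
          apply h2
          funext x
          simp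
        · rintro ⟨⟨h1, h2⟩, h3⟩
          refine ⟨h2, ?_, h3⟩
          intro h4
          apply h1
          apply Subtype.ext
          rw [h4]
          funext x
          simp
      rw [hcount, Finset.filter_insert, Finset.filter_singleton]
      have hx₂0 : (0 : ℤ) ≤ x₂ := by positivity
      have hx₃0 : (0 : ℤ) ≤ x₃ := by positivity
      have hx₄0 : (0 : ℤ) ≤ x₄ := by positivity
      rcases ha χ₂ hχ₂X' with h2 | h2 <;> rcases ha χ₃ hχ₃X' with h3 | h3 <;> rcases hδ with h4 | h4 <;>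
        rw [h2, h3] at hprod hi <;> rw [h2, h3] <;> simp only [h4] at hprod hi ⊢ <;> norm_num at hprod
      · exfalso
        linarith
      · simp
      · simp
      · simp [hne]
    · rintro _ ⟨k, rfl⟩
      have hdk : charDegree (μ k : G → ℂ) = x₄ := by
        have h1 := Cfsg.Agent.Lib.Char.Degree.charDegree_natCast
          (Cfsg.Agent.Lib.Char.Basic.isCharacter_of_isIrrCharacter (μ k).2)
        rw [hdeg k k₀, ← hx₄] at h1
        exact_mod_cast h1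
      have hset : {χ : IrrCharacter G | χ ∈ (↑X : Set (IrrCharacter G)) ∧ (χ : G → ℂ) ≠ fun _ => 1} =
          ↑({χ₂, χ₃} : Finset (IrrCharacter G)) := by
        ext χ
        simp only [Set.mem_ofPred_eq, Finset.mem_coe]
        rw [← hX2, Finset.mem_erase]
        constructor
        · rintro ⟨h1, h2⟩
          refine ⟨?_, h1⟩
          rintro rfl
          apply h2
          funext x
          simp
        · rintro ⟨h1, h2⟩
          refine ⟨h2, ?_⟩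
          intro h4
          apply h1
          apply Subtype.ext
          rw [h4]
          funext x
          simp
      rw [hset, finprod_mem_coe_finset, Finset.prod_pair hne, hdk, hx₂', hx₃']
      rw [show x₄ * (x₂ * x₃) = x₂ * x₃ * x₄ by ring]
      exact hsq

end Cfsg.Agent.Lib.ModRep.AbFrob
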